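import Mathlib
import Cfsg.Agent.H353.TwoOrthLR
import Cfsg.Agent.TitsThree.KSideO
import Cfsg.Agent.S0289

/-!
# `POmega⁺(8, q)` : the class sizes prime to `p` (helper221)

`index_plus`: for `x ≠ 1` in `POmega F (quadFormPlus 4 F)`, `|F| = p ^ f`, `p ∤ |G : C(x)|`:
`|G : C(x)| = (q ^ 2 + 1) ^ 2 * (q ^ 6 - 1)`.
-/

set_option autoImplicit false
set_option linter.unusedSectionVars false
set_option linter.unusedVariables false
set_option linter.unusedSimpArgs false

namespace Cfsg.Agent.H221.CD.Idx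

open QuadraticMap Cfsg.Agent.LieClassical.OrthCore Cfsg.Agent.LieClassical.OrthTrans
open Cfsg.Agent.LieClassical.OrthFinite Cfsg.Agent.LieClassical.OrthForms Cfsg.Agent.H955 Cfsg.Agent.GenOrth
open Cfsg.Agent.H353.TwoOrth

section

variable {F V : Type*} [Field F] [AddCommGroup V] [Module F V] {Q : QuadraticForm F V} {x x' y y' : V}

variable (h : Fr Q x x' y y')

include h

/-- elements centralizing the Siegel group of `x` -/
theorem fix (hQ : Nondeg Q) {z : ↥(E Q)} (h1 : ∀ g ∈ (sgE h.hx.left).range, z * g * z⁻¹ = g) :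
    ∃ a : F, a * a = 1 ∧ (z : V ≃ₗ[F] V) x = a • x ∧
      ∀ w, polar Q x w = 0 → ∃ c : F, (z : V ≃ₗ[F] V) w = a • w + c • x := by
  obtain ⟨a1, a2, a3, a4, a5, a6, a7, a8, a9, a10, a11, a12, a13, a14, a15, a16⟩ := h.pols
  have hzO := E_le_O z.2
  have c1' : ∀ (w : V) (hw : polar Q x w = 0) (v : V),
      v + polar Q ((z : V ≃ₗ[F] V) x) v • (z : V ≃ₗ[F] V) w - polar Q ((z : V ≃ₗ[F] V) w) v • (z : V ≃ₗ[F] V) x -
        (Q w * polar Q ((z : V ≃ₗ[F] V) x) v) • (z : V ≃ₗ[F] V) x =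
      v + polar Q x v • w - polar Q w v • x - (Q w * polar Q x v) • x := by
    intro w hw v
    rw [← conj_sgE h.hx.left hw z v, h1 _ (mem_range_sgE.2 ⟨w, hw, rfl⟩), sgE_apply' _ hw]
  have hTS' : TS Q x y' := by
    have h' : Fr Q x x' y' y := ⟨h.hx, h.hy.symm, h.xy', h.xy, h.x'y', h.x'y⟩
    exact h'.ts
  have hline : ∀ w, TS Q x w → ∃ a b : F, (z : V ≃ₗ[F] V) x = a • x + b • w := by
    intro w hw
    obtain ⟨a, b, c, d, e1, -, -⟩ := Rf_inj hQ hw (hw.map hzO) (fun v => by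
      have := c1' w hw.pol v
      rw [hw.right, zero_mul, zero_smul, sub_zero, zero_mul, zero_smul, sub_zero] at this
      rw [Rf, Rf]
      exact this.symm)
    exact ⟨a, b, e1⟩
  obtain ⟨a, b, e1⟩ := hline y h.ts
  obtain ⟨a', b', e2⟩ := hline y' hTS'
  have hb : b = 0 := by
    have h3 := congrArg (polar Q y') (e1.symm.trans e2)
    simp only [polar_add_right, polar_smul_right, a13, a15, a16, smul_eq_mul, mul_zero, mul_one, zero_add] at h3
    exact h3
  rw [hb, zero_smul, add_zero] at e1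
  have ha : a ≠ 0 := by
    rintro rfl
    rw [zero_smul] at e1
    exact h.hx.left_ne ((LinearEquiv.map_eq_zero_iff _).1 e1)
  have e3 : ∀ w, polar Q x w = 0 → ∃ c : F, (z : V ≃ₗ[F] V) w = a⁻¹ • w + c • x := by
    intro w hw
    have h3 := c1' w hw x'
    rw [e1, polar_smul_left, a2, smul_eq_mul, mul_one, one_smul] at h3
    refine ⟨a⁻¹ * (polar Q ((z : V ≃ₗ[F] V) w) x' * a + Q w * a * a - polar Q w x' - Q w * 1), ?_⟩
    have h4 : a • (z : V ≃ₗ[F] V) w = w + (polar Q ((z : V ≃ₗ[F] V) w) x' * a + Q w * a * a - polar Q w x' -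
        Q w * 1) • x := by
      rw [← sub_eq_zero] at h3 ⊢
      rw [← h3]
      module
    rw [mul_smul, ← smul_add, ← h4, smul_smul, inv_mul_cancel₀ ha, one_smul]
  have haa : a * a = 1 := by
    have h4 : polar Q x (y + y') = 0 := by rw [polar_add_right, a3, a4, add_zero]
    obtain ⟨c, hc⟩ := e3 (y + y') h4
    have h5 : Q (y + y') = 1 := by rw [Q_add, h.hy.left, h.hy.right, a12, zero_add, zero_add]
    have h6 : Q ((z : V ≃ₗ[F] V) (y + y')) = 1 := by rw [mem_O.1 hzO]; exact h5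
    rw [hc, Q_add, QuadraticMap.map_smul, QuadraticMap.map_smul, h5, h.hx.left, polar_smul_left, polar_smul_right,
      polar_comm Q (y + y') x, h4] at h6
    simp only [smul_eq_mul, mul_zero, add_zero, mul_one] at h6
    field_simp at h6
    rw [← pow_two, ← h6]
  have hai : a⁻¹ = a := by
    rw [inv_eq_iff_eq_inv, eq_comm]
    exact inv_eq_of_mul_eq_one_left haa
  rw [hai] at e3
  exact ⟨a, haa, e1, e3⟩

/-- the centralizer, for elements fixing `x` -/
theorem mem_XG_of_fix [FiniteDimensional F V] (hQ : Nondeg Q) (hd : 5 ≤ Module.finrank F V) {z : ↥(E Q)}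
    (e1 : (z : V ≃ₗ[F] V) x = x)
    (h1 : ∀ g ∈ (sgE h.hx.left).range, z * g * z⁻¹ = g) (h2 : ∀ g ∈ KY h.hy.left x, z * g * z⁻¹ = g) :
    z ∈ XG h.ts := by
  obtain ⟨a1, a2, a3, a4, a5, a6, a7, a8, a9, a10, a11, a12, a13, a14, a15, a16⟩ := h.pols
  have hzO := E_le_O z.2
  have c1' : ∀ (w : V) (hw : polar Q x w = 0) (v : V),
      v + polar Q ((z : V ≃ₗ[F] V) x) v • (z : V ≃ₗ[F] V) w - polar Q ((z : V ≃ₗ[F] V) w) v • (z : V ≃ₗ[F] V) x -
        (Q w * polar Q ((z : V ≃ₗ[F] V) x) v) • (z : V ≃ₗ[F] V) x =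
      v + polar Q x v • w - polar Q w v • x - (Q w * polar Q x v) • x := by
    intro w hw v
    rw [← conj_sgE h.hx.left hw z v, h1 _ (mem_range_sgE.2 ⟨w, hw, rfl⟩), sgE_apply' _ hw]
  have c2' : ∀ (w : V) (hw : polar Q y w = 0) (hw' : polar Q x w = 0) (v : V),
      v + polar Q ((z : V ≃ₗ[F] V) y) v • (z : V ≃ₗ[F] V) w - polar Q ((z : V ≃ₗ[F] V) w) v • (z : V ≃ₗ[F] V) y -
        (Q w * polar Q ((z : V ≃ₗ[F] V) y) v) • (z : V ≃ₗ[F] V) y =
      v + polar Q y v • w - polar Q w v • y - (Q w * polar Q y v) • y := by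
    intro w hw hw' v
    rw [← conj_sgE h.hy.left hw z v, h2 _ (mem_KY.2 ⟨w, hw, hw', rfl⟩), sgE_apply' _ hw]
  -- action on the hyperplane
  have e3 : ∀ w, polar Q x w = 0 → (z : V ≃ₗ[F] V) w = w + (polar Q ((z : V ≃ₗ[F] V) w) x' - polar Q w x') • x := by
    intro w hw
    have h3 := c1' w hw x'
    rw [e1, a2, one_smul, one_smul, mul_one] at h3
    have h4 : (z : V ≃ₗ[F] V) w = w + (polar Q ((z : V ≃ₗ[F] V) w) x' - polar Q w x') • x := by
      have h5 := sub_eq_zero.2 h3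
      rw [← sub_eq_zero, ← h5]
      module
    exact h4
  -- second relation
  have key : ∀ w ∈ cW Q x x' y y', polar Q ((z : V ≃ₗ[F] V) y) x' • w +
      (-(polar Q ((z : V ≃ₗ[F] V) w) x') - Q w * polar Q ((z : V ≃ₗ[F] V) y) x') • y +
      (-(Q w * polar Q ((z : V ≃ₗ[F] V) y) x' * polar Q ((z : V ≃ₗ[F] V) y) x')) • x = 0 := by
    intro w hw
    obtain ⟨⟨w1, w2⟩, w3, w4⟩ := mem_cW.1 hw
    have h3 := c2' w w3 w1 x'
    have e4 := e3 w w1
    have e5 := e3 y a3
    rw [polar_comm Q w x', w2, sub_zero] at e4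
    rw [polar_comm Q y x', a7, sub_zero] at e5
    rw [a10, polar_comm Q w x', w2] at h3
    set f := polar Q ((z : V ≃ₗ[F] V) y) x' with hf
    set e := polar Q ((z : V ≃ₗ[F] V) w) x' with he
    rw [e4, e5] at h3
    have h5 := sub_eq_zero.2 h3
    rw [← h5]
    module
  -- `f = 0`
  have hfr := finrank_cW h
  have hnd := nondeg_cW h hQ
  have hf0 : polar Q ((z : V ≃ₗ[F] V) y) x' = 0 := by
    have hnt : Nontrivial (cW Q x x' y y') := Module.nontrivial_of_finrank_pos (R := F) (by omega)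
    obtain ⟨w, hw⟩ := exists_ne (0 : cW Q x x' y y')
    obtain ⟨w', hw'⟩ := hnd.exists_polar_eq hw 1
    rw [polar_res] at hw'
    obtain ⟨⟨u1, u2⟩, u3, u4⟩ := mem_cW.1 w'.2
    have h3 := congrArg (fun v => polar Q v (w' : V)) (key w w.2)
    simp only [polar_add_left, polar_smul_left, hw', u1, u3, polar_zero_left, smul_eq_mul, mul_zero, mul_one,
      add_zero] at h3
    exact h3
  have he0 : ∀ w ∈ cW Q x x' y y', polar Q ((z : V ≃ₗ[F] V) w) x' = 0 := by
    intro w hw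
    obtain ⟨⟨w1, w2⟩, w3, w4⟩ := mem_cW.1 hw
    have h3 := congrArg (fun v => polar Q y' v) (key w hw)
    simp only [hf0, polar_add_right, polar_smul_right, a13, a15, w4, polar_zero_right, smul_eq_mul, mul_zero, mul_one,
      add_zero, zero_add, sub_zero] at h3
    exact neg_eq_zero.1 h3
  have hzy : (z : V ≃ₗ[F] V) y = y := by
    have e5 := e3 y a3
    rw [polar_comm Q y x', a7, sub_zero, hf0, zero_smul, add_zero] at e5
    exact e5
  have hzw : ∀ w ∈ cW Q x x' y y', (z : V ≃ₗ[F] V) w = w := by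
    intro w hw
    obtain ⟨⟨w1, w2⟩, w3, w4⟩ := mem_cW.1 hw
    have e4 := e3 w w1
    rw [polar_comm Q w x', w2, sub_zero, he0 w hw, zero_smul, add_zero] at e4
    exact e4
  have hzY : z ∈ YG Q x y := by
    refine mem_YG.2 ⟨e1, hzy, fun w hw _ => ⟨polar Q ((z : V ≃ₗ[F] V) w) x' - polar Q w x', 0, ?_⟩⟩
    rw [zero_smul, add_zero]
    exact e3 w hw
  refine mem_XG_of h hzY ?_ ?_
  · refine hnd _ fun w => ?_
    rw [polar_res]
    have h3 := Y_w h hzY w.2
    rw [hzw _ w.2, add_assoc] at h3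
    have h4 := h.ts.ind _ _ (left_eq_add.1 h3)
    rw [polar_comm]
    exact neg_eq_zero.1 h4.1
  · refine hnd _ fun w => ?_
    rw [polar_res]
    have h3 := Y_w h hzY w.2
    rw [hzw _ w.2, add_assoc] at h3
    have h4 := h.ts.ind _ _ (left_eq_add.1 h3)
    rw [polar_comm]
    exact neg_eq_zero.1 h4.2

/-- `z ∈ XG` up to a central element -/
theorem exists_central [FiniteDimensional F V] (hQ : Nondeg Q) (hd : 5 ≤ Module.finrank F V) {p : ℕ}
    [hp : Fact p.Prime] [CharP F p] {z : ↥(E Q)}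
    (h1 : ∀ g ∈ (sgE h.hx.left).range, z * g * z⁻¹ = g) (h2 : ∀ g ∈ KY h.hy.left x, z * g * z⁻¹ = g) :
    ∃ s ∈ Subgroup.center ↥(E Q), z * s ∈ XG h.ts := by
  obtain ⟨a1, a2, a3, a4, a5, a6, a7, a8, a9, a10, a11, a12, a13, a14, a15, a16⟩ := h.pols
  obtain ⟨a, haa, e1, e3⟩ := fix h hQ h1
  by_cases ha : a = 1
  · rw [ha, one_smul] at e1
    exact ⟨1, Subgroup.one_mem _, by rw [mul_one]; exact mem_XG_of_fix h hQ hd e1 h1 h2⟩
  have ha' : a = -1 := by
    have h3 : (a - 1) * (a + 1) = 0 := by linear_combination haa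
    rcases mul_eq_zero.1 h3 with h4 | h4
    · exact absurd (sub_eq_zero.1 h4) ha
    · exact eq_neg_of_add_eq_zero_left h4
  have h20 : (2 : F) ≠ 0 := by
    intro h20
    apply ha
    rw [ha']
    linear_combination (-1) * h20
  have hp2 : p ≠ 2 := by
    rintro rfl
    apply h20
    have := CharP.cast_eq_zero F 2
    exact_mod_cast this
  obtain ⟨k, hk⟩ := hp.out.odd_of_ne_two hp2
  -- the square
  have comm : ∀ (H : Subgroup ↥(E Q)), (∀ g ∈ H, z * g * z⁻¹ = g) → ∀ n : ℕ, ∀ g ∈ H, z ^ n * g * (z ^ n)⁻¹ = g := by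
    intro H hH n g hg
    have h3 : z * g = g * z := mul_inv_eq_iff_eq_mul.1 (hH g hg)
    have h4 : Commute z g := h3
    exact mul_inv_eq_iff_eq_mul.2 (h4.pow_left n)
  have hsq : z ^ 2 ∈ XG h.ts := by
    refine mem_XG_of_fix h hQ hd ?_ (comm _ h1 2) (comm _ h2 2)
    have h3 : ((z ^ 2 : ↥(E Q)) : V ≃ₗ[F] V) x = (z : V ≃ₗ[F] V) ((z : V ≃ₗ[F] V) x) := by
      rw [pow_two]; rfl
    rw [h3, e1, map_smul, e1, smul_smul, haa, one_smul]
  have hs2 : (z ^ p) ^ 2 = 1 := by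
    obtain ⟨c, hc⟩ := hsq
    rw [← pow_mul, mul_comm, pow_mul, ← hc, xh_pow]
  -- the power `z ^ p`
  obtain ⟨b, hbb, f1, f3⟩ := fix h hQ (comm _ h1 p)
  set s : ↥(E Q) := z ^ p with hs
  have hb : b = -1 := by
    have h3 : ∀ n : ℕ, ((z ^ n : ↥(E Q)) : V ≃ₗ[F] V) x = a ^ n • x := by
      intro n
      induction n with
      | zero => simp
      | succ n ih =>
        have : ((z ^ (n + 1) : ↥(E Q)) : V ≃ₗ[F] V) x = ((z ^ n : ↥(E Q)) : V ≃ₗ[F] V) ((z : V ≃ₗ[F] V) x) := rfl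
        rw [this, e1, map_smul, ih, smul_smul, pow_succ, mul_comm]
    have h4 := h3 p
    rw [← hs, f1, ha', hk, pow_succ, pow_mul, neg_one_sq, one_pow, one_mul] at h4
    have h5 : (b - -1) • x = 0 := by rw [sub_smul, h4, sub_self]
    exact sub_eq_zero.1 ((smul_eq_zero.1 h5).resolve_right h.hx.left_ne)
  have hss : ∀ v, (s : V ≃ₗ[F] V) ((s : V ≃ₗ[F] V) v) = v := by
    intro v
    have h3 : ((s ^ 2 : ↥(E Q)) : V ≃ₗ[F] V) v = v := by rw [hs2]; rfl
    rw [pow_two] at h3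
    exact h3
  have g3 : ∀ w, polar Q x w = 0 → (s : V ≃ₗ[F] V) w = -w := by
    intro w hw
    obtain ⟨c, hc⟩ := f3 w hw
    have h3 := hss w
    rw [hc, map_add, map_smul, map_smul, hc, f1, hb] at h3
    have h4 : (-(2 * c)) • x = 0 := by
      have h5 := sub_eq_zero.2 h3
      rw [← h5]
      module
    have h5 : c = 0 := by
      have h6 := (smul_eq_zero.1 h4).resolve_right h.hx.left_ne
      have h7 := neg_eq_zero.1 h6
      exact (mul_eq_zero.1 h7).resolve_left h20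
    rw [hc, h5, hb, zero_smul, add_zero, neg_one_smul]
  have hsO := E_le_O s.2
  have gx' : (s : V ≃ₗ[F] V) x' = -x' := by
    -- `s x' + x'` is orthogonal to `x ^ ⊥`, and isotropic
    have h3 : ∀ w, polar Q x w = 0 → polar Q ((s : V ≃ₗ[F] V) x' + x') w = 0 := by
      intro w hw
      have h4 := polar_map hsO x' (-w)
      rw [map_neg, g3 w hw, neg_neg, polar_neg_right] at h4
      rw [polar_add_left, h4]
      ring
    have h4 : ∃ c : F, (s : V ≃ₗ[F] V) x' + x' = c • x := by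
      refine ⟨polar Q ((s : V ≃ₗ[F] V) x' + x') x', ?_⟩
      refine sub_eq_zero.1 (hQ _ fun v => ?_)
      have h5 : polar Q x (v - polar Q x v • x') = 0 := by
        rw [polar_sub_right, polar_smul_right, a2, smul_eq_mul, mul_one, sub_self]
      have h6 := h3 _ h5
      rw [polar_sub_right, polar_smul_right, smul_eq_mul] at h6
      rw [polar_sub_left, polar_smul_left, smul_eq_mul]
      linear_combination h6
    obtain ⟨c, hc⟩ := h4
    have h5 : (s : V ≃ₗ[F] V) x' = c • x + (-1 : F) • x' := by rw [← hc]; module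
    have h6 : Q ((s : V ≃ₗ[F] V) x') = 0 := by rw [mem_O.1 hsO]; exact h.hx.right
    rw [h5, Q_add, QuadraticMap.map_smul, QuadraticMap.map_smul, h.hx.left, h.hx.right, polar_smul_left,
      polar_smul_right, a2] at h6
    simp only [smul_eq_mul, mul_zero, zero_add, mul_one, mul_neg, neg_eq_zero] at h6
    rw [h5, h6, zero_smul, zero_add, neg_one_smul]
  have gs : ∀ v, (s : V ≃ₗ[F] V) v = -v := by
    intro v
    have h5 : polar Q x (v - polar Q x v • x') = 0 := by
      rw [polar_sub_right, polar_smul_right, a2, smul_eq_mul, mul_one, sub_self]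
    have h6 := g3 _ h5
    rw [map_sub, map_smul, gx'] at h6
    have h7 : (s : V ≃ₗ[F] V) v = (s : V ≃ₗ[F] V) v - polar Q x v • -x' + polar Q x v • -x' := by abel
    rw [h7, h6]
    module
  refine ⟨s, ?_, ?_⟩
  · rw [Subgroup.mem_center_iff]
    intro g
    apply Subtype.ext
    apply LinearEquiv.ext
    intro v
    show (g : V ≃ₗ[F] V) ((s : V ≃ₗ[F] V) v) = (s : V ≃ₗ[F] V) ((g : V ≃ₗ[F] V) v)
    rw [gs, gs, map_neg]
  · have h3 : z * s = (z ^ 2) ^ (k + 1) := by
      rw [hs, ← pow_succ', ← pow_mul, hk]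
      congr 1
    rw [h3]
    exact pow_mem hsq _

end

theorem index_eq_ncard {T : Type*} [Group T] (t : T) :
    (Subgroup.centralizer ({t} : Set T)).index = {k : T | ∃ g, g * t * g⁻¹ = k}.ncard := by
  have h2 : (MulAction.stabilizer (ConjAct T) t).comap (ConjAct.toConjAct : T ≃* ConjAct T).toMonoidHom =
      Subgroup.centralizer ({t} : Set T) := by
    ext g
    rw [Subgroup.mem_comap, MulAction.mem_stabilizer_iff, Subgroup.mem_centralizer_singleton_iff]
    show ConjAct.toConjAct g • t = t ↔ _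
    rw [ConjAct.toConjAct_smul, mul_inv_eq_iff_eq_mul]
  rw [← h2, Subgroup.index_comap_of_surjective _ (ConjAct.toConjAct (G := T)).surjective, MulAction.index_stabilizer]
  congr 1

theorem exists_conj_commute {G : Type*} [Group G] [Finite G] {p : ℕ} [Fact p.Prime] {R : Subgroup G}
    (hR : IsPGroup p R) (x : G) (hx : ¬ p ∣ (Subgroup.centralizer ({x} : Set G)).index) :
    ∃ g : G, ∀ r ∈ R, r * (g * x * g⁻¹) = (g * x * g⁻¹) * r := by
  obtain ⟨q, hq⟩ := hR.nonempty_fixed_point_of_prime_not_dvd_card (G ⧸ Subgroup.centralizer ({x} : Set G)) hx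
  obtain ⟨g, rfl⟩ := QuotientGroup.mk_surjective q
  refine ⟨g, fun r hr => ?_⟩
  have h := hq ⟨r, hr⟩
  have h1 : ((r * g : G) : G ⧸ Subgroup.centralizer ({x} : Set G)) = (g : G ⧸ Subgroup.centralizer ({x} : Set G)) := h
  rw [eq_comm, QuotientGroup.eq, Subgroup.mem_centralizer_singleton_iff] at h1
  have h2 : g * (g⁻¹ * (r * g) * x) * g⁻¹ = g * (x * (g⁻¹ * (r * g))) * g⁻¹ := by rw [h1]
  have e1 : g * (g⁻¹ * (r * g) * x) * g⁻¹ = r * (g * x * g⁻¹) := by group
  have e2 : g * (x * (g⁻¹ * (r * g))) * g⁻¹ = (g * x * g⁻¹) * r := by group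
  rw [← e1, ← e2, h2]

section group

variable {F V : Type*} [Field F] [AddCommGroup V] [Module F V] {Q : QuadraticForm F V}
variable {p : ℕ} [hp : Fact p.Prime] [CharP F p]

/-- the class sizes prime to `p` -/
theorem index_gen [Finite F] (hG : Good Q) (hd : 7 ≤ Module.finrank F V) {T : Type*} [Group T] (φ : ↥(E Q) →* T)
    (hφ : Function.Surjective φ) (hker : φ.ker = Subgroup.center ↥(E Q)) (t : T) (ht : t ≠ 1)
    (hpt : ¬ p ∣ (Subgroup.centralizer ({t} : Set T)).index) :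
    (Subgroup.centralizer ({t} : Set T)).index = (RE Q).ncard := by
  classical
  have hfd : FiniteDimensional F V := Module.finite_of_finrank_pos (by omega)
  have hfV : Finite V := Module.finite_of_finite F
  have hfE : Finite (V ≃ₗ[F] V) := Finite.of_injective (fun g : V ≃ₗ[F] V => (g : V → V)) DFunLike.coe_injective
  have hfT : Finite T := Finite.of_surjective φ hφ
  obtain ⟨x, x', hx⟩ := hG.exists_hyp
  obtain ⟨y, y', h⟩ := exists_Fr hG hx
  have hkp : ∀ k : ↥(E Q), φ k = 1 → ∀ n : ℕ, k ^ p ^ n = 1 → k = 1 := fun k hk n hn =>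
    center_pow hG (hker.le hk) hn
  have hkp1 : ∀ k : ↥(E Q), φ k = 1 → k ^ p = 1 → k = 1 := fun k hk hn =>
    hkp k hk 1 (by rw [pow_one]; exact hn)
  have hR := pgroup_sup h p
  obtain ⟨g, hg⟩ := exists_conj_commute (hR.map φ) t hpt
  obtain ⟨z, hz⟩ := hφ (g * t * g⁻¹)
  rw [← hz] at hg
  -- `z` commutes with the `p`-group
  have hcomm : ∀ r ∈ (KY h.hy.left x ⊔ (sgE h.hx.left).range : Subgroup ↥(E Q)), z * r * z⁻¹ = r := by
    intro r hr
    have h1 : φ (z * r * z⁻¹ * r⁻¹) = 1 := by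
      have h2 := hg (φ r) ⟨r, hr, rfl⟩
      rw [map_mul, map_mul, map_mul, map_inv, map_inv, ← h2]
      group
    obtain ⟨n, hn⟩ := hR ⟨r, hr⟩
    have hn' : r ^ p ^ n = 1 := congrArg Subtype.val hn
    have h3 := Subgroup.mem_center_iff.1 (hker.le h1)
    have h4 : Commute (z * r * z⁻¹ * r⁻¹) r := (h3 r).symm
    have h5 := h4.mul_pow (p ^ n)
    rw [inv_mul_cancel_right, conj_pow, hn', mul_one, mul_one, mul_inv_cancel] at h5
    exact mul_inv_eq_one.1 (hkp _ h1 n h5.symm)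
  obtain ⟨s, hs, hzs⟩ := exists_central h hG.nondeg (by omega) (p := p) (z := z)
    (fun r hr => hcomm r ((le_sup_right : (sgE h.hx.left).range ≤ _) hr))
    (fun r hr => hcomm r ((le_sup_left : KY h.hy.left x ≤ _) hr))
  have hφs : φ s = 1 := hker.ge hs
  have hφz : φ (z * s) = g * t * g⁻¹ := by rw [map_mul, hφs, mul_one, hz]
  obtain ⟨c, hc⟩ := (mem_XG h.ts).1 hzs
  have hc0 : c ≠ 0 := by
    rintro rfl
    apply ht
    have h1 : z * s = 1 := by
      apply Subtype.ext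
      apply LinearEquiv.ext
      intro v
      rw [hc v]
      simp
    rw [h1, map_one] at hφz
    have h2 : t = g⁻¹ * (g * t * g⁻¹) * g := by group
    rw [h2, ← hφz]
    group
  have hts : TS Q x (c • y) := by
    have := h.ts.comb (a := 1) (b := 0) (c := 0) (d := c) (by simpa using hc0)
    simpa using this
  -- the conjugacy class
  have hset : {k : T | ∃ u, u * t * u⁻¹ = k} = φ '' (RE Q) := by
    ext k
    constructor
    · rintro ⟨u, rfl⟩
      obtain ⟨w, hw⟩ := hφ (u * g⁻¹)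
      refine ⟨w * (z * s) * w⁻¹, ⟨_, _, hts.map (E_le_O w.2), fun v => ?_⟩, ?_⟩
      · rw [conj_apply (g := w) hc v, Rf, map_smul, polar_smul_left]
        simp only [smul_eq_mul]
        module
      · rw [map_mul, map_mul, map_inv, hφz, hw]
        group
    · rintro ⟨k, ⟨x1, y1, h1, hk⟩, rfl⟩
      obtain ⟨w, hw, e1, e2⟩ := trans_TS hG hd hts h1
      refine ⟨φ ⟨w, hw⟩ * g, ?_⟩
      have h2 : k = ⟨w, hw⟩ * (z * s) * (⟨w, hw⟩ : ↥(E Q))⁻¹ := by
        apply Subtype.ext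
        apply LinearEquiv.ext
        intro v
        rw [hk v, conj_apply (g := ⟨w, hw⟩) hc v]
        show _ = v + (c * polar Q (w x) v) • w y - (c * polar Q (w y) v) • w x
        rw [map_smul] at e2
        rw [← e2, ← e1, Rf, polar_smul_left]
        simp only [smul_eq_mul]
        module
      rw [h2, map_mul, map_mul, map_inv, hφz]
      group
  rw [index_eq_ncard, hset]
  apply Set.InjOn.ncard_image
  intro a ha b hb hab
  have h1 : φ (a * b⁻¹) = 1 := by rw [map_mul, map_inv, hab, mul_inv_cancel]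
  have h2 := Subgroup.mem_center_iff.1 (hker.le h1)
  have h3 : (a * b⁻¹) ^ p = 1 := by
    have h4 : Commute (a * b⁻¹) b := (h2 b).symm
    have h5 : a = (a * b⁻¹) * b := by group
    have h6 := h4.mul_pow p
    rw [← h5, RE_mem ha, RE_mem hb, mul_one] at h6
    exact h6.symm
  exact mul_inv_eq_one.1 (hkp1 _ h1 h3)

end group

theorem arith {q N z' : ℕ} (hq : 2 ≤ q) (h1 : q ^ 7 + q ^ 4 - q ^ 3 = q ^ 6 * (q - 1) + z' * q)
    (h2 : N * (q ^ 2 - 1) = (q ^ 7 + q ^ 4 - q ^ 3 - 1) * (z' - 1)) : N = (q ^ 2 + 1) ^ 2 * (q ^ 6 - 1) := by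
  have hq1 : 1 ≤ q := by omega
  have p2 : 1 ≤ q ^ 2 := Nat.one_le_pow _ _ hq1
  have p6 : 1 ≤ q ^ 6 := Nat.one_le_pow _ _ hq1
  have l1 : q ^ 3 ≤ q ^ 7 + q ^ 4 := le_trans (Nat.pow_le_pow_right hq1 (by norm_num)) (Nat.le_add_left _ _)
  have l2 : 1 ≤ q ^ 7 + q ^ 4 - q ^ 3 := by
    have : q ^ 3 < q ^ 4 := Nat.pow_lt_pow_right hq (by norm_num)
    omega
  have e1 : (z' : ℤ) = (q : ℤ) ^ 5 + (q : ℤ) ^ 3 - (q : ℤ) ^ 2 := by
    have h3 : ((q ^ 7 + q ^ 4 - q ^ 3 : ℕ) : ℤ) = ((q ^ 6 * (q - 1) + z' * q : ℕ) : ℤ) := by rw [h1]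
    rw [Nat.cast_sub l1] at h3
    push_cast [Nat.cast_sub hq1] at h3
    have hq0 : (q : ℤ) ≠ 0 := by positivity
    apply mul_right_cancel₀ hq0
    linear_combination -h3
  have l3 : 1 ≤ z' := by
    rcases Nat.eq_zero_or_pos z' with h0 | h0
    · exfalso
      rw [h0] at e1
      have h3 : (q : ℤ) ^ 2 < (q : ℤ) ^ 3 := by
        have : q ^ 2 < q ^ 3 := Nat.pow_lt_pow_right hq (by norm_num)
        exact_mod_cast this
      have h4 : 0 ≤ (q : ℤ) ^ 5 := by positivity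
      simp only [Nat.cast_zero] at e1
      linarith
    · exact h0
  have h3 : ((N * (q ^ 2 - 1) : ℕ) : ℤ) = (((q ^ 7 + q ^ 4 - q ^ 3 - 1) * (z' - 1) : ℕ) : ℤ) := by rw [h2]
  push_cast [Nat.cast_sub l2, Nat.cast_sub l1, Nat.cast_sub l3, Nat.cast_sub p2] at h3
  rw [e1] at h3
  have h4 : ((q : ℤ) ^ 2 - 1) ≠ 0 := by
    have : 2 ^ 2 ≤ q ^ 2 := Nat.pow_le_pow_left hq 2
    have h5 : (2 ^ 2 : ℤ) ≤ (q : ℤ) ^ 2 := by exact_mod_cast this
    intro h6
    linarith
  have h5 : (N : ℤ) = (((q ^ 2 + 1) ^ 2 * (q ^ 6 - 1) : ℕ) : ℤ) := by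
    push_cast [Nat.cast_sub p6]
    apply mul_right_cancel₀ h4
    linear_combination h3
  exact_mod_cast h5

universe v

/-- **the class size** -/
theorem index_plus {F : Type v} [Field F] [Fintype F] {p f : ℕ} (hp : p.Prime) (hF : Fintype.card F = p ^ f)
    (x : Cfsg.POmega F (Cfsg.quadFormPlus 4 F)) (hx : x ≠ 1)
    (h : ¬ p ∣ (Subgroup.centralizer ({x} : Set (Cfsg.POmega F (Cfsg.quadFormPlus 4 F)))).index) :
    (Subgroup.centralizer ({x} : Set (Cfsg.POmega F (Cfsg.quadFormPlus 4 F)))).index =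
      ((p ^ f) ^ 2 + 1) ^ 2 * ((p ^ f) ^ 6 - 1) := by
  have : Fact p.Prime := ⟨hp⟩
  have hchar : CharP F p := by
    have : p ∣ Fintype.card F := by
      rw [hF]
      refine dvd_pow_self p ?_
      rintro rfl
      rw [pow_zero] at hF
      have := Fintype.one_lt_card (α := F)
      omega
    exact charP_of_card_eq_prime_pow hF
  revert x hx h
  rw [← coe_plusForm]
  intro x hx h
  have hι : Fintype.card (Fin 4 ⊕ Fin 4) = 8 := by simp
  have hfr : Module.finrank F (Fin 4 ⊕ Fin 4 → F) = Fintype.card (Fin 4 ⊕ Fin 4) := Module.finrank_fintype_fun_eq_card F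
  rw [hι] at hfr
  have hG : Good (plusForm 4 F) := good_of_finite (nondeg_plusForm 4 F) (by omega)
  have hker : (TitsThree.KSideO.toPOmega hG).ker = Subgroup.center ↥(E (plusForm 4 F)) := by
    apply le_antisymm
    · intro g hg
      exact TitsThree.KSideO.center_of_toPOmega hG hg
    · intro g hg
      have h1 : TitsThree.KSideO.toOmega hG g ∈ Subgroup.center (Cfsg.Omega F ⇑(plusForm 4 F)) := by
        rw [Subgroup.mem_center_iff]
        intro k
        obtain ⟨u, rfl⟩ := (TitsThree.KSideO.toOmega hG).surjective k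
        rw [← map_mul, ← map_mul, Subgroup.mem_center_iff.1 hg u]
      exact (QuotientGroup.eq_one_iff _).2 h1
  rw [index_gen hG (by omega) (TitsThree.KSideO.toPOmega hG) (TitsThree.KSideO.toPOmega_surjective hG) hker x hx h]
  obtain ⟨a, a', ha⟩ := hG.exists_hyp
  have hz := card_zeros ha
  have hr := card_root hG.nondeg ha
  have hnz : nz (plusForm 4 F) = Fintype.card F ^ 7 + Fintype.card F ^ 4 - Fintype.card F ^ 3 := by
    have h1 := Cfsg.Agent.S0289.result (F := F) rfl 4 (by omega)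
    rw [← coe_plusForm] at h1
    exact h1
  rw [hnz, hfr, Nat.card_eq_fintype_card, hF] at hz
  rw [hnz, Nat.card_eq_fintype_card, hF] at hr
  have hq : 2 ≤ p ^ f := by
    rw [← hF]
    exact Fintype.one_lt_card
  exact arith hq hz hr

end Cfsg.Agent.H221.CD.Idx
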