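import Mathlib
import Cfsg.Agent.H221.CD.Defs
import Cfsg.Agent.H221.CD.Num
import Cfsg.Agent.H221.CS.Tor
import Cfsg.Agent.H881.CS.HBig
import Cfsg.Agent.H881.CS.PartLe
import Cfsg.Agent.H402.CS.PlusMin
import Cfsg.Agent.H286.CS.PSub
import Cfsg.Agent.H286.CS.PTor
import Cfsg.Agent.H237.PL.Even

/-!
# S3677, row `PΩ⁺(2n, q)`, `n` even: the section (helper221)
-/

set_option autoImplicit false
set_option linter.unusedSectionVars false

namespace Cfsg.Agent.H221.CD

open Subgroup Cfsg Cfsg.Agent.H364 Cfsg.Agent.H902.Lte Cfsg.Agent.H902.Art Cfsg.Agent.H60.DE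

universe u v

variable {F : Type v} [Field F] [Fintype F] {n p f : ℕ}

/-- **The section.** -/
theorem exists_sd {G : Type u} [Group G] [Finite G] (hKn : H566.KnownAll.{u}) (hp : p.Prime) (hf : 1 ≤ f)
    (hF : Fintype.card F = p ^ f) (hn : 4 ≤ n) (hev : Even n) (hG : H431.CS.Same G (POmega F (quadFormPlus n F)))
    (hY : Real (.D n) p f (Nat.card (POmega F (quadFormPlus n F)))) :
    ∃ (d m : ℕ) (K : Subgroup G) (_ : K.Normal) (S : Subgroup (G ⧸ K)), SD G n p f d m K S := by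
  classical
  have hfin : Finite (POmega F (quadFormPlus n F)) := Nat.finite_of_card_ne_zero hY.M_ne
  have hev' : n % 2 = 0 := Nat.even_iff.1 hev
  have hq : 2 ≤ p ^ f := hY.q_ge
  have hGS : Nat.card G = Nat.card (POmega F (quadFormPlus n F)) := hG.card
  obtain ⟨d, m, hnum, hdm⟩ := exists_num hn hev' hq (by
    intro h
    have h1 : p = 2 := by
      have h2 : 2 ∣ p ^ f := Nat.dvd_of_mod_eq_zero h
      exact ((Nat.prime_dvd_prime_iff_eq Nat.prime_two hp).1 (Nat.prime_two.dvd_of_dvd_pow h2)).symm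
    subst h1
    rcases Nat.lt_or_ge f 2 with h2 | h2
    · left
      rw [show f = 1 by omega, pow_one]
    · right
      have h3 : 2 ^ 2 ≤ 2 ^ f := Nat.pow_le_pow_right (by norm_num) h2
      omega)
  have hlat : ∀ r : ℕ, r.Prime → orderOf ((p ^ f : ℕ) : ZMod r) = d →
      H431.CS.Lat (POmega F (quadFormPlus n F)) p r m := by
    intro r hr ho
    rcases hdm with ⟨rfl, h1, rfl⟩ | ⟨rfl, h1, rfl⟩
    · exact H286.CS.lat_plus_sub hp hf hF hn hr ho (Or.inr (Or.inr h1))
    · exact H237.PL.lat_plus_even hp hf hF hn hev h1 hr ho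
  have hd3 := num_d_ge hnum hn
  have hrp : ∀ r : ℕ, r.Prime → orderOf ((p ^ f : ℕ) : ZMod r) = d → r ≠ p :=
    fun r hr ho => CS.ne_p_of_class hf hr hd3 ho
  obtain ⟨r0, hr0, hro0⟩ := num_exists_prime hnum hn hev' hq
  have hmodd := num_odd hnum hn hev' hq
  -- the class sizes
  have hZ : center G = ⊥ := H429.CS.center_eq_bot hG (H286.CS.co_coprime hn hev)
  have hmin : ∀ x : G, x ≠ 1 → (p ^ f) ^ (2 * (n - 1)) + 1 ≤ (centralizer ({x} : Set G)).index := by
    intro x hx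
    have h1 := H402.CS.PlusMin.min_index (F := F) hn
    rw [hF] at h1
    exact H429.CS.min_of_co hG hZ h1 x hx
  have hpart : ∀ t : ℕ, t.Prime → t ≠ p → ¬ (p ^ f = 2 ∧ t = 3) → ¬ (p ^ f = 3 ∧ t = 2) →
      t ^ (Nat.card (POmega F (quadFormPlus n F))).factorization t ≤ (p ^ f) ^ (2 * (n - 1)) + 1 :=
    fun t ht htp h2 h3 => (H881.CS.PartLe.part_le hY hev' ht htp h2 h3).trans (Nat.le_succ _)
  have hm3 : ∀ t : ℕ, t ∣ m → ¬ (p ^ f = 2 ∧ t = 3) ∧ ¬ (p ^ f = 3 ∧ t = 2) := by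
    intro t htm
    constructor
    · rintro ⟨h1, rfl⟩
      rw [h1] at hnum
      exact num_three hnum hn hev' htm
    · rintro ⟨-, rfl⟩
      omega
  have hmp : ¬ p ∣ m := (hlat r0 hr0 hro0).pm
  -- the product of the chosen primes
  set M := ∏ r ∈ (Nat.card (POmega F (quadFormPlus n F))).primeFactors.filter
    (fun r => orderOf ((p ^ f : ℕ) : ZMod r) = d), r with hM
  have hMr : ∀ r : ℕ, r.Prime → orderOf ((p ^ f : ℕ) : ZMod r) = d → r ∣ M := by
    intro r hr ho
    rw [hM]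
    apply Finset.dvd_prod_of_mem
    rw [Finset.mem_filter, Nat.mem_primeFactors]
    exact ⟨⟨hr, (hlat r hr ho).rS, hY.M_ne⟩, ho⟩
  have hMo : ∀ r : ℕ, r.Prime → r ∣ M → orderOf ((p ^ f : ℕ) : ZMod r) = d := by
    intro r hr hd
    rw [hM] at hd
    obtain ⟨s, hs, hrs⟩ := (Prime.dvd_finsetProd_iff hr.prime _).1 hd
    rw [Finset.mem_filter, Nat.mem_primeFactors] at hs
    rw [(Nat.prime_dvd_prime_iff_eq hr hs.1.1).1 hrs]
    exact hs.2
  have hM0 : M ≠ 0 := by
    rw [hM]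
    apply Finset.prod_ne_zero_iff.2
    intro s hs
    rw [Finset.mem_filter, Nat.mem_primeFactors] at hs
    exact hs.1.1.ne_zero
  have hM1 : 1 < M := hr0.one_lt.trans_le (Nat.le_of_dvd (Nat.pos_of_ne_zero hM0) (hMr r0 hr0 hro0))
  have hSolv := H429.CS.solv_of_known hKn
  have hl : ∀ l : ℕ, l.Prime → l ∣ m →
      l ^ (Nat.card (POmega F (quadFormPlus n F))).factorization l ≤ (p ^ f) ^ (2 * (n - 1)) + 1 := by
    intro l hlp hlm
    refine hpart l hlp ?_ (hm3 l hlm).1 (hm3 l hlm).2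
    rintro rfl
    exact hmp hlm
  have hcases : ∀ t : ℕ, t.Prime →
      (t ∣ m ∨ (p ^ f) ^ (2 * (n - 1)) + 1 < t ^ (Nat.card (POmega F (quadFormPlus n F))).factorization t) →
      t = p ∨ t ∣ m ∨ (p ^ f = 2 ∧ t = 3) ∨ (p ^ f = 3 ∧ t = 2) := by
    intro t ht h
    by_contra hcon
    rw [not_or, not_or, not_or] at hcon
    obtain ⟨h1, h2, h3, h4⟩ := hcon
    have := hpart t ht h1 h3 h4
    have := h.resolve_left h2
    omega
  obtain ⟨K, hKn', S, hS, hKt, hKc⟩ := H429.CS.main hSolv hG hp hM1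
    (fun r hr hrM => ⟨hrp r hr (hMo r hr hrM), hlat r hr (hMo r hr hrM)⟩) hmin hl (by
      intro N hN _ hNt r hr hrM a ha har
      exact H881.CS.HBig.hbig hY hev' hnum hN (fun t ht htN => hcases t ht (hNt t ht htN)) hr (hMo r hr hrM) ha har)
  have hnd : ∀ r : ℕ, r.Prime → orderOf ((p ^ f : ℕ) : ZMod r) = d → ¬ r ∣ Nat.card K := by
    intro r hr ho h1
    exact (Nat.Prime.coprime_iff_not_dvd hr).1 (Nat.Coprime.coprime_dvd_left h1 hS.coK) (hMr r hr ho)
  have hpp : ∀ r : ℕ, r.Prime → orderOf ((p ^ f : ℕ) : ZMod r) = d → H429.CS.PP G r m :=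
    fun r hr ho => H429.CS.PP.of_lat (hlat r hr ho) hr hp (hrp r hr ho) hG
  exact ⟨d, m, K, hKn', S,
    { hn := hn
      hev := hev'
      hY := hGS ▸ hY
      num := hnum
      normal := hS.normal
      simple := hS.simple
      nonab := hS.nab
      cent := hS.cent
      card := hS.card
      out := hS.out
      solv := (hpp r0 hr0 hro0).solv hSolv K (hnd r0 hr0 hro0)
      pp := hpp
      noEdge := fun r hr ho => (hlat r hr ho).toLatW.noEdge hr hp (hrp r hr ho) hG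
      not_dvd := hnd
      ex := by
        obtain ⟨r, hr, h1, h2⟩ := Nat.Prime.not_coprime_iff_dvd.1 hS.coH
        exact ⟨r, hr, hMo r hr h2, h1⟩
      min := hmin
      core := fun t ht htp h2 h3 N hN hNp => H429.CS.eq_bot_of_le ht hmin (by
        rw [hGS]
        exact hpart t ht htp h2 h3) N hN hNp
      kap := fun t ht htK => hcases t ht (hKt t ht htK)
      cong := fun r hr ho => by
        rw [hGS]
        exact hKc r hr (hMr r hr ho) }⟩

end Cfsg.Agent.H221.CD
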