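import Mathlib
import Cfsg.Agent.H221.CD.Defs

/-!
# S3677, row `PΩ⁺(2n, q)`, `n` even: the numerical data (helper221)
-/

set_option autoImplicit false
set_option linter.unusedSectionVars false

namespace Cfsg.Agent.H221.CD

open Subgroup Cfsg Cfsg.Agent.H364 Cfsg.Agent.H902.Lte Cfsg.Agent.H902.Art Cfsg.Agent.H60.DE

universe u

variable {G : Type u} [Group G] [Finite G] {n p f d m : ℕ} {K : Subgroup G} [K.Normal] {S : Subgroup (G ⧸ K)}

theorem SD.index_pos (_h : SD G n p f d m K S) : 0 < S.index := Nat.pos_of_ne_zero Subgroup.index_ne_zero_of_finite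

theorem SD.card_dvd (h : SD G n p f d m K S) : Nat.card S ∣ Nat.card G :=
  ⟨Nat.card K * S.index, by rw [← h.card]; ring⟩

/-- the parts for the primes not dividing `|K|` -/
theorem SD.P_eq (h : SD G n p f d m K S) {t : ℕ} (ht : t.Prime) (hd : ¬ t ∣ Nat.card K) :
    P t (Nat.card G) = P t (S.index * Nat.card S) := by
  rw [← h.card, P_mul Nat.card_pos.ne' (Nat.mul_ne_zero h.index_pos.ne' Nat.card_pos.ne'), P_eq_one hd, one_mul]

theorem SD.P_dvd (h : SD G n p f d m K S) {t : ℕ} (ht : t.Prime) (hd : ¬ t ∣ Nat.card K) :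
    P t (Nat.card G) ∣ S.index * Nat.card S := by
  rw [h.P_eq ht hd, P]
  exact Nat.ordProj_dvd _ _

theorem SD.dat (h : SD G n p f d m K S) : Dat n p f (Nat.card G) d m (Nat.card S) S.index where
  hn := h.hn
  hev := h.hev
  hY := h.hY
  num := h.num
  hMS := h.card_dvd
  hI0 := h.index_pos
  big := fun t ht htp htm h2 h3 => h.P_dvd ht fun hd => by
    rcases h.kap t ht hd with h4 | h4 | h4 | h4
    · exact htp h4
    · exact htm h4
    · exact h2 h4
    · exact h3 h4
  per := fun r hr ho => h.P_dvd hr (h.not_dvd r hr ho)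
  ex := h.ex

/-- the centralizers in `S` -/
theorem SD.cs (h : SD G n p f d m K S) {r : ℕ} (hr : r.Prime) (ho : orderOf ((p ^ f : ℕ) : ZMod r) = d) {y : S}
    (hy : orderOf y = r) : Nat.card (centralizer ({y} : Set S)) ∣ m := by
  have hy' : orderOf (y : G ⧸ K) = r := by rw [Subgroup.orderOf_coe]; exact hy
  refine dvd_trans ?_ (((h.pp r hr ho).quotient K (h.not_dvd r hr ho)).cent _ hy')
  have hle : (centralizer ({y} : Set S)).map S.subtype ≤ centralizer ({(y : G ⧸ K)} : Set (G ⧸ K)) := by
    rintro _ ⟨x, hx, rfl⟩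
    rw [SetLike.mem_coe, mem_centralizer_singleton_iff] at hx
    rw [mem_centralizer_singleton_iff]
    exact congrArg Subtype.val hx
  have h1 : Nat.card ((centralizer ({y} : Set S)).map S.subtype) = Nat.card (centralizer ({y} : Set S)) :=
    Subgroup.card_map_of_injective S.subtype_injective
  rw [← h1]
  exact Subgroup.card_dvd_of_le hle

/-- **The order of `S` decides.** -/
theorem SD.isSimple (h : SD G n p f d m K S) (hc : Nat.card S = Nat.card G) : IsSimpleGroup G := by
  have hs := h.simple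
  have h0 : 0 < Nat.card G := Nat.card_pos
  have h1 : Nat.card K * S.index = 1 := by
    have h2 := h.card
    rw [hc, ← mul_assoc] at h2
    exact Nat.eq_of_mul_eq_mul_right h0 (h2.trans (one_mul _).symm)
  have hK : K = ⊥ := Subgroup.card_eq_one.1 (Nat.eq_one_of_mul_eq_one_right h1)
  have hS : S = ⊤ := Subgroup.index_eq_one.1 (Nat.eq_one_of_mul_eq_one_left h1)
  subst hS
  have h4 : IsSimpleGroup (G ⧸ K) := (Subgroup.topEquiv (G := G ⧸ K)).symm.isSimpleGroup
  have hinj : Function.Injective (QuotientGroup.mk' K) := by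
    rw [← MonoidHom.ker_eq_bot_iff, QuotientGroup.ker_mk', hK]
  exact (MulEquiv.ofBijective (QuotientGroup.mk' K) ⟨hinj, QuotientGroup.mk'_surjective K⟩).isSimpleGroup

end Cfsg.Agent.H221.CD
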